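import Cfsg.Agent.Lib.Helper41.SnB.Defs

set_option autoImplicit false

/-!
# [SL3] for S2986: the derived group of `SL₂(3)` has order `8`

Transport to `ZMod 3`; there the derived group is `{g | g ^ 4 = 1}` (checked by `decide`).
-/

namespace Cfsg.Agent.Lib.Helper87.SnB

open Cfsg.Agent.Lib.Helper41.SnB

open scoped commutatorElement

/-- `SL₂(3)` over `ZMod 3`. -/
abbrev SL23 : Type := Matrix.SpecialLinearGroup (Fin 2) (ZMod 3)

/-- an element of order `3` -/
def sl23U : SL23 := ⟨!![1, 1; 0, 1], by simp [Matrix.det_fin_two]⟩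

/-- its transpose -/
def sl23V : SL23 := ⟨!![1, 0; 1, 1], by simp [Matrix.det_fin_two]⟩

/-- an element of order `4` -/
def sl23I : SL23 := ⟨!![0, 1; -1, 0], by simp [Matrix.det_fin_two]⟩

section facts

set_option maxRecDepth 100000

theorem sl23_comm_pow : ∀ g h : SL23, ⁅g, h⁆ ^ 4 = 1 := by decide

theorem sl23_mul_pow : ∀ g h : SL23, g ^ 4 = 1 → h ^ 4 = 1 → (g * h) ^ 4 = 1 := by decide

theorem sl23_card_pow : Nat.card {g : SL23 // g ^ 4 = 1} = 8 := by
  rw [Nat.card_eq_fintype_card]
  decide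

theorem sl23_gen : ∀ g : SL23, g ^ 4 = 1 →
    ∃ x y : Fin 4, g = ⁅sl23U, sl23I⁆ ^ (x : ℕ) * ⁅sl23U, sl23V⁆ ^ (y : ℕ) := by decide

end facts

/-- the derived group of `SL₂(ZMod 3)` has order `8` -/
theorem card_commutator_sl23 : Nat.card ↥(commutator SL23) = 8 := by
  obtain ⟨H, hH⟩ : ∃ H : Subgroup SL23, ∀ g, g ∈ H ↔ g ^ 4 = 1 :=
    ⟨{ carrier := {g | g ^ 4 = 1}
       mul_mem' := fun {a b} ha hb => sl23_mul_pow a b ha hb
       one_mem' := one_pow 4
       inv_mem' := fun {a} ha => by
         show a⁻¹ ^ 4 = 1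
         rw [inv_pow, show a ^ 4 = 1 from ha, inv_one] }, fun g => Iff.rfl⟩
  have hle : commutator SL23 ≤ H := by
    rw [commutator_eq_closure, Subgroup.closure_le]
    rintro _ ⟨g, h, rfl⟩
    exact (hH _).mpr (sl23_comm_pow g h)
  have hge : H ≤ commutator SL23 := by
    intro g hg
    obtain ⟨x, y, rfl⟩ := sl23_gen g ((hH g).mp hg)
    have hc : ∀ a b : SL23, ⁅a, b⁆ ∈ commutator SL23 := fun a b =>
      Subgroup.commutator_mem_commutator (Subgroup.mem_top a) (Subgroup.mem_top b)
    exact mul_mem (pow_mem (hc _ _) _) (pow_mem (hc _ _) _)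
  rw [le_antisymm hle hge, ← sl23_card_pow]
  exact Nat.card_congr (Equiv.subtypeEquivRight hH)

/-- a group isomorphic to `SL₂(ZMod 3)` has a derived group of order `8` -/
theorem card_commutator_of_mulEquiv {X : Type*} [Group X] (e : X ≃* SL23) :
    Nat.card ↥(commutator X) = 8 := by
  have h1 : (commutator X).map e.toMonoidHom = commutator SL23 := by
    rw [commutator_def, commutator_def, Subgroup.map_commutator,
      Subgroup.map_top_of_surjective e.toMonoidHom e.surjective]
  rw [← card_commutator_sl23, ← h1]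
  exact Nat.card_congr ((commutator X).equivMapOfInjective e.toMonoidHom e.injective).toEquiv

/-- `SL₂(F) ≃* SL₂(ZMod 3)` for a field with three elements -/
theorem nonempty_mulEquiv_sl23 (F : Type) [Field F] [Fintype F] (hF : Fintype.card F = 3) :
    Nonempty (Matrix.SpecialLinearGroup (Fin 2) F ≃* SL23) := by
  obtain ⟨e⟩ : Nonempty (ZMod 3 ≃+* F) := ⟨ZMod.ringEquivOfPrime F Nat.prime_three hF⟩
  refine ⟨{ toFun := Matrix.SpecialLinearGroup.map e.symm.toRingHom
            invFun := Matrix.SpecialLinearGroup.map e.toRingHom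
            left_inv := ?_
            right_inv := ?_
            map_mul' := map_mul _ }⟩
  · intro g
    apply Subtype.ext
    ext i j
    simp
  · intro g
    apply Subtype.ext
    ext i j
    simp

/-- [SL3] the derived group of `SL₂(3)` has order 8. -/
theorem pkgSL3 : PkgSL3 := by
  intro F _ _ hF
  obtain ⟨e⟩ := nonempty_mulEquiv_sl23 F hF
  exact card_commutator_of_mulEquiv e

end Cfsg.Agent.Lib.Helper87.SnB
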