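import Cfsg.Agent.Lib.Helper41.SnB.Defs

set_option autoImplicit false

/-!
# [CQ] for S2986: the orbit lemma

`S` a finite `r`-group normalizing `N`, two pairs `CQPair N a Kᵢ Aᵢ zᵢ` with `Kᵢ ≤ S`: then
`A₁ = A₂`, or `K₂` centralizes `A₁` and `K₁` centralizes `A₂`.  Strong induction on `|S|`:
if `K₁ = S` (or `K₂ = S`) then `A₂ ≤ A₁`; otherwise `K₁` lies in a normal maximal subgroup `M`
of `S`, the `K₂`-conjugates of `A₁` are pairwise equal or orthogonal (induction for `M`), there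
are at most two of them (three would give `a ^ 3` elements in `A₂ A₁`), and the irreducibility
clause of the second pair applies to the stabilizer of `A₁` in `K₂`.
-/

universe u

namespace Cfsg.Agent.Lib.Helper87.SnB

open Cfsg.Agent.Lib.Helper41.SnB

variable {G : Type u} [Group G]

/-- `K` normalizes `A` -/
theorem cq_norm {N : Subgroup G} {a : ℕ} {K A : Subgroup G} {z : G} (h : CQPair N a K A z) :
    ∀ k ∈ K, ∀ u ∈ A, k * u * k⁻¹ ∈ A := by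
  intro k hk u hu
  have h1 := h.2.2.2.1 u (h.1 hu) k hk
  have h2 := A.mul_mem h1 hu
  rwa [inv_mul_cancel_right] at h2

/-- every element of `A` is a commutator with `z` -/
theorem cq_surj {N : Subgroup G} {a : ℕ} (ha : 1 < a) {K A : Subgroup G} {z : G}
    (h : CQPair N a K A z) : ∀ u ∈ A, ∃ u' ∈ A, u = z * u' * z⁻¹ * u'⁻¹ := by
  obtain ⟨hAN, hcard, hNA, hNK, hzK, hzc, hfpf, hirr⟩ := h
  haveI : Finite ↥A := Nat.finite_of_card_ne_zero (by omega)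
  obtain ⟨f, hf⟩ : ∃ f : ↥A → ↥A, ∀ u : ↥A, (f u : G) = z * (u : G) * z⁻¹ * (u : G)⁻¹ :=
    ⟨fun u => ⟨z * (u : G) * z⁻¹ * (u : G)⁻¹, hNK u (hAN u.2) z hzK⟩, fun u => rfl⟩
  have hinj : Function.Injective f := by
    intro u u' huu
    have h1 : z * (u : G) * z⁻¹ * (u : G)⁻¹ = z * (u' : G) * z⁻¹ * (u' : G)⁻¹ := by
      rw [← hf, ← hf, huu]
    have h3 : (u' : G)⁻¹ * u * z⁻¹ = z⁻¹ * ((u' : G)⁻¹ * u) := by
      calc (u' : G)⁻¹ * u * z⁻¹ = (u' : G)⁻¹ * z⁻¹ * (z * u * z⁻¹ * (u : G)⁻¹) * u := by group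
        _ = (u' : G)⁻¹ * z⁻¹ * (z * u' * z⁻¹ * (u' : G)⁻¹) * u := by rw [h1]
        _ = z⁻¹ * ((u' : G)⁻¹ * u) := by group
    have h2 : z * ((u' : G)⁻¹ * u) = ((u' : G)⁻¹ * u) * z := by
      calc z * ((u' : G)⁻¹ * u) = z * ((u' : G)⁻¹ * u * z⁻¹) * z := by group
        _ = z * (z⁻¹ * ((u' : G)⁻¹ * u)) * z := by rw [h3]
        _ = ((u' : G)⁻¹ * u) * z := by group
    have h4 := hfpf _ (A.mul_mem (A.inv_mem u'.2) u.2) h2
    exact Subtype.ext (inv_mul_eq_one.mp h4).symm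
  have hsurj := Finite.surjective_of_injective hinj
  intro u hu
  obtain ⟨u', hu'⟩ := hsurj ⟨u, hu⟩
  refine ⟨u', u'.2, ?_⟩
  rw [← hf, hu']

/-- two pairs with `A₂ ≤ A₁` have `A₁ = A₂` -/
theorem cq_eq_of_le {N : Subgroup G} {a : ℕ} (ha : 1 < a) {K₁ A₁ K₂ A₂ : Subgroup G}
    {z₁ z₂ : G} (h₁ : CQPair N a K₁ A₁ z₁) (h₂ : CQPair N a K₂ A₂ z₂) (hle : A₂ ≤ A₁) :
    A₁ = A₂ := by
  haveI : Finite ↥A₁ := Nat.finite_of_card_ne_zero (by rw [h₁.2.1]; omega)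
  exact (Subgroup.eq_of_le_of_card_ge hle (by rw [h₁.2.1, h₂.2.1])).symm

/-- transport of a pair by an automorphism preserving `N` -/
theorem cq_map {N : Subgroup G} {a : ℕ} {K A : Subgroup G} {z : G} (h : CQPair N a K A z)
    (φ : G ≃* G) (hφ : ∀ n, φ n ∈ N ↔ n ∈ N) :
    CQPair N a (K.map φ.toMonoidHom) (A.map φ.toMonoidHom) (φ z) := by
  obtain ⟨hAN, hcard, hNA, hNK, hzK, hzc, hfpf, hirr⟩ := h
  have hmem : ∀ (L : Subgroup G) (x : G), x ∈ L.map φ.toMonoidHom ↔ φ.symm x ∈ L :=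
    fun L x => Subgroup.mem_map_equiv
  have hmem' : ∀ (L : Subgroup G) (x : G), x ∈ L.map φ.symm.toMonoidHom ↔ φ x ∈ L :=
    fun L x => Subgroup.mem_map_equiv
  have hφs : ∀ n, φ.symm n ∈ N ↔ n ∈ N := by
    intro n
    rw [← hφ (φ.symm n), φ.apply_symm_apply]
  refine ⟨?_, ?_, ?_, ?_, ?_, ?_, ?_, ?_⟩
  · intro x hx
    rw [hmem] at hx
    exact (hφs x).mp (hAN hx)
  · rw [← hcard]
    exact (Nat.card_congr (A.equivMapOfInjective φ.toMonoidHom φ.injective).toEquiv).symm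
  · intro n hn x hx
    rw [hmem] at hx ⊢
    rw [map_mul, map_mul, map_inv]
    exact hNA _ ((hφs n).mpr hn) _ hx
  · intro u hu k hk
    rw [hmem] at hk ⊢
    rw [map_mul, map_mul, map_mul, map_inv, map_inv]
    exact hNK _ ((hφs u).mpr hu) _ hk
  · rw [hmem, φ.symm_apply_apply]
    exact hzK
  · intro k hk
    rw [hmem] at hk
    have h2 := congrArg φ (hzc _ hk)
    rw [map_mul, map_mul, φ.apply_symm_apply] at h2
    exact h2
  · intro u hu hcomm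
    rw [hmem] at hu
    have h1 : z * φ.symm u = φ.symm u * z := by
      have h2 := congrArg φ.symm hcomm
      rw [map_mul, map_mul, φ.symm_apply_apply] at h2
      exact h2
    have h4 := congrArg φ (hfpf _ hu h1)
    rwa [φ.apply_symm_apply, map_one] at h4
  · intro K₀ hK₀ htwo
    have hK₀' : K₀.map φ.symm.toMonoidHom ≤ K := by
      intro l hl
      rw [hmem'] at hl
      have h1 := hK₀ hl
      rw [hmem, φ.symm_apply_apply] at h1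
      exact h1
    have htwo' : ∀ l ∈ K, ∀ l' ∈ K, l ∉ K₀.map φ.symm.toMonoidHom →
        l' ∉ K₀.map φ.symm.toMonoidHom → l⁻¹ * l' ∈ K₀.map φ.symm.toMonoidHom := by
      intro l hl l' hl' hn hn'
      rw [hmem'] at hn hn' ⊢
      rw [map_mul, map_inv]
      exact htwo (φ l) (by rw [hmem, φ.symm_apply_apply]; exact hl) (φ l')
        (by rw [hmem, φ.symm_apply_apply]; exact hl') hn hn'
    obtain ⟨hz0, hD⟩ := hirr _ hK₀' htwo'
    refine ⟨(hmem' K₀ z).mp hz0, ?_⟩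
    intro D hDA hDn
    have hDA' : D.map φ.symm.toMonoidHom ≤ A := by
      intro d hd
      rw [hmem'] at hd
      have h1 := hDA hd
      rw [hmem, φ.symm_apply_apply] at h1
      exact h1
    have hDn' : Nz (K₀.map φ.symm.toMonoidHom) (D.map φ.symm.toMonoidHom) := by
      intro k hk d hd
      rw [hmem'] at hk hd ⊢
      rw [map_mul, map_mul, map_inv]
      exact hDn _ hk _ hd
    have hDD : D = (D.map φ.symm.toMonoidHom).map φ.toMonoidHom := by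
      ext x
      rw [hmem, hmem', φ.apply_symm_apply]
    rcases hD _ hDA' hDn' with h0 | h0
    · left
      rw [hDD, h0, Subgroup.map_bot]
    · right
      rw [hDD, h0]

/-- the conjugate of a subgroup -/
abbrev cj (l : G) (X : Subgroup G) : Subgroup G := X.map (MulAut.conj l).toMonoidHom

theorem mem_cj (l : G) (X : Subgroup G) (x : G) : x ∈ cj l X ↔ l⁻¹ * x * l ∈ X := by
  rw [Subgroup.mem_map_equiv, MulAut.conj_symm_apply]

theorem cj_eq_iff (l : G) (A : Subgroup G) :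
    cj l A = A ↔ l ∈ Subgroup.normalizer (A : Set G) := by
  rw [Subgroup.mem_normalizer_iff]
  constructor
  · intro h u
    have h1 : l * u * l⁻¹ ∈ cj l A ↔ u ∈ A := by
      rw [mem_cj]
      have e : l⁻¹ * (l * u * l⁻¹) * l = u := by group
      rw [e]
    rw [h] at h1
    exact h1.symm
  · intro h
    ext x
    rw [mem_cj, h (l⁻¹ * x * l)]
    have e : l * (l⁻¹ * x * l) * l⁻¹ = x := by group
    rw [e]

/-- a conjugate pair, for `l` normalizing `N` -/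
theorem cq_cj {N : Subgroup G} {a : ℕ} {K A : Subgroup G} {z : G} (h : CQPair N a K A z)
    (l : G) (hl : ∀ n ∈ N, l * n * l⁻¹ ∈ N) (hl' : ∀ n ∈ N, l⁻¹ * n * l ∈ N) :
    CQPair N a (cj l K) (cj l A) (l * z * l⁻¹) := by
  have h1 := cq_map h (MulAut.conj l) (by
    intro n
    rw [MulAut.conj_apply]
    constructor
    · intro hn
      have h2 := hl' _ hn
      have e : l⁻¹ * (l * n * l⁻¹) * l = n := by group
      rwa [e] at h2
    · exact hl n)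
  rwa [MulAut.conj_apply] at h1

/-- a proper subgroup of a finite `r`-group lies in a proper normal subgroup -/
theorem exists_normal_max (S : Subgroup G) [Finite ↥S] (r : ℕ) [Fact r.Prime]
    (hS : IsPGroup r ↥S) (K : Subgroup G) (hK : K ≤ S) (hne : K ≠ S) :
    ∃ M : Subgroup G, K ≤ M ∧ M ≤ S ∧ M ≠ S ∧ ∀ s ∈ S, ∀ m ∈ M, s * m * s⁻¹ ∈ M := by
  haveI : Group.IsNilpotent ↥S := hS.isNilpotent
  have hne' : K.subgroupOf S ≠ ⊤ := by
    intro h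
    exact hne (le_antisymm hK (Subgroup.subgroupOf_eq_top.mp h))
  obtain ⟨H, hH, hKH⟩ := (eq_top_or_exists_le_coatom (K.subgroupOf S)).resolve_left hne'
  have hHn : H.Normal :=
    Subgroup.NormalizerCondition.normal_of_coatom H normalizerCondition_of_isNilpotent hH
  refine ⟨H.map S.subtype, ?_, ?_, ?_, ?_⟩
  · intro k hk
    exact ⟨⟨k, hK hk⟩, hKH (Subgroup.mem_subgroupOf.mpr hk), rfl⟩
  · rintro _ ⟨m, -, rfl⟩
    exact m.2
  · intro h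
    apply hH.1
    rw [eq_top_iff]
    intro x _
    have hx : (x : G) ∈ H.map S.subtype := by
      rw [h]
      exact x.2
    obtain ⟨y, hy, hyx⟩ := hx
    have e : y = x := Subtype.ext hyx
    rwa [← e]
  · rintro s hs _ ⟨m, hm, rfl⟩
    exact ⟨⟨s, hs⟩ * m * ⟨s, hs⟩⁻¹, hHn.conj_mem m hm ⟨s, hs⟩, rfl⟩

/-- a subgroup `B'` of `A₂ A₁` on which `z'` is fixed-point-free, where `z'` centralizes `A₁` and
a subgroup `B` of `A₂ A₁` of order `a` with `A₁ ⊓ B = 1` (witnessed by `z₁`): impossible -/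
theorem cq_three {N : Subgroup G} {a : ℕ} (ha : 1 < a) {K₁ A₁ K₂ A₂ : Subgroup G} {z₁ z₂ : G}
    (h₁ : CQPair N a K₁ A₁ z₁) (h₂ : CQPair N a K₂ A₂ z₂) (B B' : Subgroup G) (z' : G)
    (hB : Nat.card ↥B = a)
    (hBsub : ∀ y ∈ B, ∃ v ∈ A₂, ∃ w ∈ A₁, y = v * w)
    (hB'sub : ∀ y ∈ B', ∃ v ∈ A₂, ∃ w ∈ A₁, y = v * w)
    (hB'card : Nat.card ↥B' = a)
    (hz₁B : ∀ y ∈ B, z₁ * y = y * z₁)
    (hz'A : ∀ x ∈ A₁, z' * x = x * z')
    (hz'B : ∀ y ∈ B, z' * y = y * z')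
    (hz'fpf : ∀ u ∈ B', z' * u = u * z' → u = 1) : False := by
  obtain ⟨hAN, hcard, hNA, hNK, hzK, hzc, hfpf, hirr⟩ := h₁
  obtain ⟨hAN₂, hcard₂, hNA₂, hNK₂, hzK₂, hzc₂, hfpf₂, hirr₂⟩ := h₂
  haveI : Finite ↥A₁ := Nat.finite_of_card_ne_zero (by omega)
  haveI : Finite ↥A₂ := Nat.finite_of_card_ne_zero (by omega)
  haveI : Finite ↥B := Nat.finite_of_card_ne_zero (by omega)
  obtain ⟨T, hTdef⟩ : ∃ T : Set G, T = {x | ∃ v ∈ A₂, ∃ w ∈ A₁, x = v * w} := ⟨_, rfl⟩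
  have hTmem : ∀ x, x ∈ T ↔ ∃ v ∈ A₂, ∃ w ∈ A₁, x = v * w := by
    intro x
    rw [hTdef]
    rfl
  obtain ⟨g, hg⟩ : ∃ g : ↥A₂ × ↥A₁ → ↥T, ∀ p, (g p : G) = (p.1 : G) * (p.2 : G) :=
    ⟨fun p => ⟨(p.1 : G) * (p.2 : G), (hTmem _).mpr ⟨p.1, p.1.2, p.2, p.2.2, rfl⟩⟩, fun p => rfl⟩
  have hgs : Function.Surjective g := by
    rintro ⟨x, hx⟩
    obtain ⟨v, hv, w, hw, rfl⟩ := (hTmem x).mp hx
    exact ⟨(⟨v, hv⟩, ⟨w, hw⟩), Subtype.ext (hg _)⟩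
  haveI : Finite ↥T := Finite.of_surjective g hgs
  have hT : Nat.card ↥T ≤ a * a := by
    have h1 := Nat.card_le_card_of_surjective g hgs
    rwa [Nat.card_prod, hcard₂, hcard] at h1
  have hmemT : ∀ x ∈ A₁, ∀ y ∈ B, x * y ∈ T := by
    intro x hx y hy
    obtain ⟨v, hv, w, hw, rfl⟩ := hBsub y hy
    refine (hTmem _).mpr ⟨x * v * x⁻¹, hNA₂ x (hAN hx) v hv, x * w, A₁.mul_mem hx hw, ?_⟩
    group
  obtain ⟨f, hf⟩ : ∃ f : ↥A₁ × ↥B → ↥T, ∀ p, (f p : G) = (p.1 : G) * (p.2 : G) :=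
    ⟨fun p => ⟨(p.1 : G) * (p.2 : G), hmemT _ p.1.2 _ p.2.2⟩, fun p => rfl⟩
  have hfi : Function.Injective f := by
    rintro ⟨x, y⟩ ⟨x', y'⟩ hxy
    have h1 : (x : G) * (y : G) = (x' : G) * (y' : G) := by
      have h0 := congrArg Subtype.val hxy
      rwa [hf, hf] at h0
    have h2 : (x' : G)⁻¹ * (x : G) = (y' : G) * (y : G)⁻¹ := by
      calc (x' : G)⁻¹ * (x : G) = (x' : G)⁻¹ * ((x : G) * (y : G)) * (y : G)⁻¹ := by group
        _ = (x' : G)⁻¹ * ((x' : G) * (y' : G)) * (y : G)⁻¹ := by rw [h1]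
        _ = (y' : G) * (y : G)⁻¹ := by group
    have h3 : (x' : G)⁻¹ * (x : G) = 1 := by
      apply hfpf _ (A₁.mul_mem (A₁.inv_mem x'.2) x.2)
      rw [h2]
      exact hz₁B _ (B.mul_mem y'.2 (B.inv_mem y.2))
    have h4 : (x' : G) = x := inv_mul_eq_one.mp h3
    have h5 : (y' : G) = y := by
      rw [h3] at h2
      exact mul_inv_eq_one.mp h2.symm
    exact Prod.ext (Subtype.ext h4.symm) (Subtype.ext h5.symm)
  have hbij : Function.Bijective f := by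
    apply hfi.bijective_of_nat_card_le
    rw [Nat.card_prod, hcard, hB]
    exact hT
  have hB'1 : ∀ u ∈ B', u = 1 := by
    intro u hu
    obtain ⟨⟨x, y⟩, hxy⟩ := hbij.2 ⟨u, (hTmem u).mpr (hB'sub u hu)⟩
    have h1 : (x : G) * (y : G) = u := by
      have h0 := congrArg Subtype.val hxy
      rwa [hf] at h0
    apply hz'fpf u hu
    rw [← h1]
    calc z' * ((x : G) * (y : G)) = (z' * (x : G)) * (y : G) := by group
      _ = ((x : G) * z') * (y : G) := by rw [hz'A x x.2]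
      _ = (x : G) * (z' * (y : G)) := by group
      _ = (x : G) * ((y : G) * z') := by rw [hz'B y y.2]
      _ = (x : G) * (y : G) * z' := by group
  have hbot : B' = ⊥ := by
    rw [eq_bot_iff]
    intro u hu
    rw [Subgroup.mem_bot]
    exact hB'1 u hu
  rw [hbot, Subgroup.card_bot] at hB'card
  omega

/-- one half of the orbit lemma: if `K₁ ≠ S` then `A₁ = A₂` or `K₂` centralizes `A₁` -/
theorem cq_half {N : Subgroup G} {a : ℕ} (ha : 1 < a) (S : Subgroup G) [Finite ↥S] (r : ℕ)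
    [Fact r.Prime] (hS : IsPGroup r ↥S) (hSN : Nz S N)
    (ih : ∀ M : Subgroup G, M ≤ S → M ≠ S → ∀ (K₁ A₁ : Subgroup G) (z₁ : G)
      (K₂ A₂ : Subgroup G) (z₂ : G), K₁ ≤ M → K₂ ≤ M → CQPair N a K₁ A₁ z₁ →
      CQPair N a K₂ A₂ z₂ → A₁ = A₂ ∨ (Cz K₂ A₁ ∧ Cz K₁ A₂))
    (K₁ A₁ : Subgroup G) (z₁ : G) (K₂ A₂ : Subgroup G) (z₂ : G) (hK₁ : K₁ ≤ S) (hK₂ : K₂ ≤ S)
    (hne : K₁ ≠ S) (h₁ : CQPair N a K₁ A₁ z₁) (h₂ : CQPair N a K₂ A₂ z₂) :
    A₁ = A₂ ∨ Cz K₂ A₁ := by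
  obtain ⟨M, hKM, hMS, hMne, hMn⟩ := exists_normal_max S r hS K₁ hK₁ hne
  -- conjugate pairs
  have hSl : ∀ l ∈ S, (∀ n ∈ N, l * n * l⁻¹ ∈ N) ∧ (∀ n ∈ N, l⁻¹ * n * l ∈ N) := by
    intro l hl
    refine ⟨fun n hn => hSN l hl n hn, fun n hn => ?_⟩
    have h1 := hSN l⁻¹ (S.inv_mem hl) n hn
    rwa [inv_inv] at h1
  have hpair : ∀ l ∈ S, CQPair N a (cj l K₁) (cj l A₁) (l * z₁ * l⁻¹) :=
    fun l hl => cq_cj h₁ l (hSl l hl).1 (hSl l hl).2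
  have hcjM : ∀ l ∈ S, cj l K₁ ≤ M := by
    intro l hl x hx
    rw [mem_cj] at hx
    have h1 := hMn l hl _ (hKM hx)
    have e : l * (l⁻¹ * x * l) * l⁻¹ = x := by group
    rwa [e] at h1
  have hzcj : ∀ l : G, l * z₁ * l⁻¹ ∈ cj l K₁ := by
    intro l
    rw [mem_cj]
    have e : l⁻¹ * (l * z₁ * l⁻¹) * l = z₁ := by group
    rw [e]
    exact h₁.2.2.2.2.1
  -- conjugates of `A₁` under `K₂` lie in `A₂ A₁`
  have hsub : ∀ l ∈ K₂, ∀ y ∈ cj l A₁, ∃ v ∈ A₂, ∃ w ∈ A₁, y = v * w := by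
    intro l hl y hy
    rw [mem_cj] at hy
    refine ⟨l * (l⁻¹ * y * l) * l⁻¹ * (l⁻¹ * y * l)⁻¹, h₂.2.2.2.1 _ (h₁.1 hy) l hl,
      l⁻¹ * y * l, hy, ?_⟩
    group
  -- at most two conjugates
  have hD : ∀ l ∈ K₂, ∀ l' ∈ K₂, cj l A₁ ≠ A₁ → cj l' A₁ ≠ A₁ → cj l A₁ = cj l' A₁ := by
    intro l hl l' hl' hlA hl'A
    by_contra hBB
    have hP := hpair l (hK₂ hl)
    have hP' := hpair l' (hK₂ hl')
    have c1 : Cz K₁ (cj l A₁) := by
      rcases ih M hMS hMne K₁ A₁ z₁ (cj l K₁) (cj l A₁) _ hKM (hcjM l (hK₂ hl)) h₁ hP with h | h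
      · exact absurd h.symm hlA
      · exact h.2
    have c2 : Cz (cj l' K₁) A₁ := by
      rcases ih M hMS hMne K₁ A₁ z₁ (cj l' K₁) (cj l' A₁) _ hKM (hcjM l' (hK₂ hl')) h₁ hP' with
        h | h
      · exact absurd h.symm hl'A
      · exact h.1
    have c3 : Cz (cj l' K₁) (cj l A₁) := by
      rcases ih M hMS hMne (cj l K₁) (cj l A₁) _ (cj l' K₁) (cj l' A₁) _ (hcjM l (hK₂ hl))
        (hcjM l' (hK₂ hl')) hP hP' with h | h
      · exact absurd h hBB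
      · exact h.1
    exact cq_three ha h₁ h₂ (cj l A₁) (cj l' A₁) (l' * z₁ * l'⁻¹) hP.2.1 (hsub l hl)
      (hsub l' hl') hP'.2.1 (fun y hy => c1 z₁ h₁.2.2.2.2.1 y hy)
      (fun x hx => c2 _ (hzcj l') x hx) (fun y hy => c3 _ (hzcj l') y hy)
      hP'.2.2.2.2.2.2.1
  -- the stabilizer of `A₁` in `K₂`
  have hK₀ : K₂ ⊓ Subgroup.normalizer (A₁ : Set G) ≤ K₂ := inf_le_left
  have htwo : ∀ l ∈ K₂, ∀ l' ∈ K₂, l ∉ K₂ ⊓ Subgroup.normalizer (A₁ : Set G) →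
      l' ∉ K₂ ⊓ Subgroup.normalizer (A₁ : Set G) →
      l⁻¹ * l' ∈ K₂ ⊓ Subgroup.normalizer (A₁ : Set G) := by
    intro l hl l' hl' hn hn'
    have hlA : cj l A₁ ≠ A₁ := fun h => hn ⟨hl, (cj_eq_iff l A₁).mp h⟩
    have hl'A : cj l' A₁ ≠ A₁ := fun h => hn' ⟨hl', (cj_eq_iff l' A₁).mp h⟩
    have heq := hD l hl l' hl' hlA hl'A
    refine ⟨K₂.mul_mem (K₂.inv_mem hl) hl', ?_⟩
    apply Subgroup.mem_normalizer_iff.mpr
    intro u
    have h1 : l' * u * l'⁻¹ ∈ cj l' A₁ ↔ u ∈ A₁ := by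
      rw [mem_cj]
      have e : l'⁻¹ * (l' * u * l'⁻¹) * l' = u := by group
      rw [e]
    rw [← heq, mem_cj] at h1
    have e : l⁻¹ * l' * u * (l⁻¹ * l')⁻¹ = l⁻¹ * (l' * u * l'⁻¹) * l := by group
    rw [e]
    exact h1.symm
  obtain ⟨hz₂K₀, hirr⟩ := h₂.2.2.2.2.2.2.2 _ hK₀ htwo
  have hz₂n : ∀ u, u ∈ A₁ ↔ z₂ * u * z₂⁻¹ ∈ A₁ := Subgroup.mem_normalizer_iff.mp hz₂K₀.2
  have hDn : Nz (K₂ ⊓ Subgroup.normalizer (A₁ : Set G)) (A₁ ⊓ A₂) := by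
    intro k hk d hd
    exact ⟨(Subgroup.mem_normalizer_iff.mp hk.2 d).mp hd.1, cq_norm h₂ k hk.1 d hd.2⟩
  rcases hirr (A₁ ⊓ A₂) inf_le_right hDn with h0 | h0
  · right
    -- `z₂` centralizes `A₁`
    have hz₂A : ∀ u ∈ A₁, z₂ * u = u * z₂ := by
      intro u hu
      have h1 : z₂ * u * z₂⁻¹ * u⁻¹ ∈ A₁ ⊓ A₂ :=
        ⟨A₁.mul_mem ((hz₂n u).mp hu) (A₁.inv_mem hu),
          h₂.2.2.2.1 u (h₁.1 hu) z₂ h₂.2.2.2.2.1⟩
      rw [h0, Subgroup.mem_bot] at h1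
      calc z₂ * u = (z₂ * u * z₂⁻¹ * u⁻¹) * (u * z₂) := by group
        _ = u * z₂ := by rw [h1, one_mul]
    intro k hk u hu
    have hc1 : Commute z₂ k := h₂.2.2.2.2.2.1 k hk
    have hc2 : Commute z₂ u := hz₂A u hu
    have hc : Commute z₂ (k * u * k⁻¹ * u⁻¹) :=
      ((hc1.mul_right hc2).mul_right hc1.inv_right).mul_right hc2.inv_right
    have h1 := h₂.2.2.2.2.2.2.1 _ (h₂.2.2.2.1 u (h₁.1 hu) k hk) hc.eq
    calc k * u = (k * u * k⁻¹ * u⁻¹) * (u * k) := by group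
      _ = u * k := by rw [h1, one_mul]
  · left
    apply cq_eq_of_le ha h₁ h₂
    rw [← h0]
    exact inf_le_left

/-- the orbit lemma, by strong induction on the order of `S` -/
theorem cq_main {N : Subgroup G} {a : ℕ} (ha : 1 < a) (r : ℕ) [Fact r.Prime] :
    ∀ (n : ℕ) (S : Subgroup G), Finite ↥S → Nat.card ↥S = n → IsPGroup r ↥S → Nz S N →
    ∀ (K₁ A₁ : Subgroup G) (z₁ : G) (K₂ A₂ : Subgroup G) (z₂ : G), K₁ ≤ S → K₂ ≤ S →
      CQPair N a K₁ A₁ z₁ → CQPair N a K₂ A₂ z₂ → A₁ = A₂ ∨ (Cz K₂ A₁ ∧ Cz K₁ A₂) := by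
  intro n
  induction n using Nat.strong_induction_on with
  | _ n ih =>
    intro S hfin hn hS hSN K₁ A₁ z₁ K₂ A₂ z₂ hK₁ hK₂ h₁ h₂
    haveI := hfin
    have ih' : ∀ M : Subgroup G, M ≤ S → M ≠ S → ∀ (K₁ A₁ : Subgroup G) (z₁ : G)
        (K₂ A₂ : Subgroup G) (z₂ : G), K₁ ≤ M → K₂ ≤ M → CQPair N a K₁ A₁ z₁ →
        CQPair N a K₂ A₂ z₂ → A₁ = A₂ ∨ (Cz K₂ A₁ ∧ Cz K₁ A₂) := by
      intro M hM hMne
      have hMfin : Finite ↥M :=
        Finite.of_injective (Subgroup.inclusion hM) (Subgroup.inclusion_injective hM)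
      have hlt : Nat.card ↥M < n := by
        rw [← hn]
        exact lt_of_not_ge (fun hge => hMne (Subgroup.eq_of_le_of_card_ge hM hge))
      exact ih (Nat.card ↥M) hlt M hMfin rfl (hS.to_le hM) (fun m hm => hSN m (hM hm))
    by_cases e1 : K₁ = S
    · left
      apply cq_eq_of_le ha h₁ h₂
      intro u hu
      obtain ⟨u', hu', rfl⟩ := cq_surj ha h₂ u hu
      exact h₁.2.2.2.1 u' (h₂.1 hu') z₂ (by rw [e1]; exact hK₂ h₂.2.2.2.2.1)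
    by_cases e2 : K₂ = S
    · left
      symm
      apply cq_eq_of_le ha h₂ h₁
      intro u hu
      obtain ⟨u', hu', rfl⟩ := cq_surj ha h₁ u hu
      exact h₂.2.2.2.1 u' (h₁.1 hu') z₁ (by rw [e2]; exact hK₁ h₁.2.2.2.2.1)
    rcases cq_half ha S r hS hSN ih' K₁ A₁ z₁ K₂ A₂ z₂ hK₁ hK₂ e1 h₁ h₂ with h | h
    · exact Or.inl h
    · rcases cq_half ha S r hS hSN ih' K₂ A₂ z₂ K₁ A₁ z₁ hK₂ hK₁ e2 h₂ h₁ with h' | h'
      · exact Or.inl h'.symm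
      · exact Or.inr ⟨h, h'⟩

/-- [CQ] the orbit lemma -/
theorem pkgCQ : PkgCQ.{u} := by
  intro G _ S N _ r _ hS hSN a ha K₁ A₁ z₁ K₂ A₂ z₂ hK₁ hK₂ h₁ h₂
  exact cq_main ha r _ S inferInstance rfl hS hSN K₁ A₁ z₁ K₂ A₂ z₂ hK₁ hK₂ h₁ h₂

end Cfsg.Agent.Lib.Helper87.SnB
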